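import Cfsg.Agent.H901.K547.Simple
import Cfsg.Agent.H220.K547.Resid

/-!
# S4547: [K3] with the exact statement (helper901, task 5110)
-/

set_option autoImplicit false

namespace Cfsg.Agent.H901.K547

open Cfsg Subgroup Cfsg.Agent.H601.K4 Cfsg.Agent.H821.K547 Cfsg.Agent.H514.K547

universe u

variable {G : Type u} [Group G] [Finite G]

theorem simple_cyclic (S : Subgroup G) [S.Normal] (_ : IsSimpleGroup S) (_ : ¬ IsMulCommutative S)
    (hC : centralizer (S : Set G) = ⊥) (hrow : Row S) (x : G) (hx : S ⊔ zpowers x = ⊤) (hS2 : S = pResidual 2 G)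
    (hne : S ≠ ⊤) : TT G :=
  simple_cyclic_of S hC hrow x hx hS2 hne (H220.K547.fg_residual S hS2 hne x hx)

end Cfsg.Agent.H901.K547
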